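import Mathlib
import Cfsg.Agent.Lib.Helper35.JR.Defs

/-!
# Project JR (S3206): package [NL]

Transport of the `PSL₂(F)` facts to an abstract group `N ≅ PSL₂(F)`, plus simplicity and
generation by squares.
-/

set_option autoImplicit false

namespace Cfsg.Agent.Lib.Helper44.JR

open Cfsg.Agent.Lib.Helper35.JR

universe u v

/-- transport of a Sylow subgroup along an isomorphism -/
noncomputable def sylTr44 {p : ℕ} {A : Type u} {B : Type v} [Group A] [Group B] (e : A ≃* B)
    (P : Sylow p A) : Sylow p B :=
  P.comapOfInjective e.symm.toMonoidHom e.symm.injective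
    (fun x _ => ⟨e x, by simp⟩)

theorem mem_sylTr44 {p : ℕ} {A : Type u} {B : Type v} [Group A] [Group B] (e : A ≃* B)
    (P : Sylow p A) (x : B) :
    x ∈ (sylTr44 e P : Subgroup B) ↔ e.symm x ∈ (P : Subgroup A) :=
  Iff.rfl

theorem card_sylTr44 {p : ℕ} {A : Type u} {B : Type v} [Group A] [Group B] (e : A ≃* B)
    (P : Sylow p A) :
    Nat.card ↥(sylTr44 e P : Subgroup B) = Nat.card ↥(P : Subgroup A) := by
  refine (Nat.card_congr ?_).symm
  refine e.toEquiv.subtypeEquiv ?_
  intro a
  change a ∈ (P : Subgroup A) ↔ e.symm (e a) ∈ (P : Subgroup A)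
  rw [e.symm_apply_apply]

/-- [NL] -/
theorem pkgNL (hPSL : PkgPSL.{v}) : PkgNL.{u, v} := by
  intro N _ _ F _ _ hodd h3 ⟨e⟩ hab
  -- abbreviations
  have habPSL : ∀ P : Sylow 2 (Matrix.ProjectiveSpecialLinearGroup (Fin 2) F),
      ∀ x ∈ (P : Subgroup (Matrix.ProjectiveSpecialLinearGroup (Fin 2) F)),
      ∀ y ∈ (P : Subgroup (Matrix.ProjectiveSpecialLinearGroup (Fin 2) F)), x * y = y * x := by
    intro Q x hx y hy
    have hx' : e.symm x ∈ (sylTr44 e.symm Q : Subgroup N) := by
      rw [mem_sylTr44]; simpa using hx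
    have hy' : e.symm y ∈ (sylTr44 e.symm Q : Subgroup N) := by
      rw [mem_sylTr44]; simpa using hy
    have h := hab (sylTr44 e.symm Q) _ hx' _ hy'
    have h2 := congrArg e h
    simpa using h2
  obtain ⟨hcard, haut⟩ := hPSL F hodd h3 habPSL
  have hsimpPSL : IsSimpleGroup (Matrix.ProjectiveSpecialLinearGroup (Fin 2) F) :=
    Matrix.ProjectiveSpecialLinearGroup.rank_two_simple
      (by rw [Nat.card_eq_fintype_card]; omega)
  have hsimp : IsSimpleGroup N := (MulEquiv.isSimpleGroup_congr e).mpr hsimpPSL
  -- Sylow data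
  have hsyl : ∀ P : Sylow 2 N, Nat.card ↥(P : Subgroup N) = 4 ∧
      ∀ x ∈ (P : Subgroup N), x ^ 2 = 1 := by
    intro P
    obtain ⟨h4, hexp⟩ := hcard (sylTr44 e P)
    refine ⟨by rw [← card_sylTr44 e P]; exact h4, ?_⟩
    intro x hx
    have hx' : e x ∈ (sylTr44 e P : Subgroup _) := by
      rw [mem_sylTr44]; simpa using hx
    have h := hexp _ hx'
    apply e.injective
    rw [map_pow, map_one]; exact h
  refine ⟨hsimp, ?_, hsyl, ?_⟩
  · -- closure of squares
    set K : Subgroup N := Subgroup.closure {y : N | ∃ x : N, x ^ 2 = y} with hK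
    have hKn : K.Normal := by
      refine ⟨fun n hn g => ?_⟩
      have hconj : ∀ n ∈ K, g * n * g⁻¹ ∈ K := by
        intro n hn
        refine Subgroup.closure_induction (p := fun n _ => g * n * g⁻¹ ∈ K) ?_ ?_ ?_ ?_ hn
        · rintro y ⟨x, rfl⟩
          exact Subgroup.subset_closure ⟨g * x * g⁻¹, conj_pow⟩
        · simp
        · intro a b _ _ ha hb
          have : g * (a * b) * g⁻¹ = (g * a * g⁻¹) * (g * b * g⁻¹) := by group
          rw [this]; exact K.mul_mem ha hb
        · intro a _ ha
          have : g * a⁻¹ * g⁻¹ = (g * a * g⁻¹)⁻¹ := by group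
          rw [this]; exact K.inv_mem ha
      exact hconj n hn
    rcases hKn.eq_bot_or_eq_top with hbot | htop
    · exfalso
      have hsq : ∀ x : N, x ^ 2 = 1 := by
        intro x
        have : x ^ 2 ∈ K := Subgroup.subset_closure ⟨x, rfl⟩
        rw [hbot] at this
        exact (Subgroup.mem_bot).mp this
      have hcomm : ∀ x y : N, x * y = y * x := by
        intro x y
        have h1 := hsq (x * y)
        have h2 := hsq x
        have h3 := hsq y
        have hx : x⁻¹ = x := by
          rw [inv_eq_iff_mul_eq_one, ← sq]; exact h2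
        have hy : y⁻¹ = y := by
          rw [inv_eq_iff_mul_eq_one, ← sq]; exact h3
        have hxy : (x * y)⁻¹ = x * y := by
          rw [inv_eq_iff_mul_eq_one, ← sq]; exact h1
        calc x * y = (x * y)⁻¹ := hxy.symm
          _ = y⁻¹ * x⁻¹ := mul_inv_rev x y
          _ = y * x := by rw [hx, hy]
      obtain ⟨P⟩ : Nonempty (Sylow 2 N) := inferInstance
      obtain ⟨h4, -⟩ := hsyl P
      have hne : ∃ x ∈ (P : Subgroup N), x ≠ 1 := by
        by_contra hcon
        have hcon' : ∀ x ∈ (P : Subgroup N), x = 1 := by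
          intro x hx
          by_contra hx1
          exact hcon ⟨x, hx, hx1⟩
        have hPbot : (P : Subgroup N) = ⊥ := by
          rw [Subgroup.eq_bot_iff_forall]; exact hcon'
        rw [hPbot] at h4
        simp at h4
      obtain ⟨x, -, hx1⟩ := hne
      have hZn : (Subgroup.zpowers x).Normal := by
        refine ⟨fun n hn g => ?_⟩
        have : g * n * g⁻¹ = n := by
          rw [hcomm g n]; group
        rw [this]; exact hn
      have hZtop : Subgroup.zpowers x = ⊤ := by
        rcases hZn.eq_bot_or_eq_top with hb | ht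
        · exfalso
          apply hx1
          have : x ∈ Subgroup.zpowers x := Subgroup.mem_zpowers x
          rw [hb] at this
          exact (Subgroup.mem_bot).mp this
        · exact ht
      have hcardN : Nat.card N = orderOf x := by
        rw [← Nat.card_zpowers, hZtop, Subgroup.card_top]
      have hord : orderOf x ≤ 2 := by
        apply Nat.le_of_dvd (by norm_num)
        exact orderOf_dvd_of_pow_eq_one (hsq x)
      have hle : Nat.card ↥(P : Subgroup N) ≤ Nat.card N := Subgroup.card_le_card_group _
      omega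
    · exact htop
  · -- automorphisms
    intro α k hα P hfix
    have hα' : (MulAut.congr e α) ^ (2 ^ k) = 1 := by
      rw [← map_pow]
      have : α ^ (2 ^ k) = (1 : MulAut N) := hα
      rw [this, map_one]
    have hfix' : ∀ x ∈ (sylTr44 e P : Subgroup _), (MulAut.congr e α) x = x := by
      intro x hx
      rw [mem_sylTr44] at hx
      have h := hfix _ hx
      change e (α (e.symm x)) = x
      rw [h]; simp
    obtain ⟨v, hv, hconj⟩ := haut (MulAut.congr e α) k hα' (sylTr44 e P) hfix'
    refine ⟨e.symm v, (mem_sylTr44 e P v).mp hv, ?_⟩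
    intro x
    have h := hconj (e x)
    change e (α (e.symm (e x))) = v * e x * v⁻¹ at h
    rw [e.symm_apply_apply] at h
    apply e.injective
    rw [h]; simp

end Cfsg.Agent.Lib.Helper44.JR
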